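import Cfsg.Agent.H691.T3.GLList
import Cfsg.Agent.H424.DegTools
import Cfsg.Agent.S0886
import Cfsg.Agent.S1489
import Cfsg.Agent.CharactersDeep.CosetAverage
import Cfsg.Agent.CharactersDeep.NormalInd
import Cfsg.Agent.ClassicalGeometry.PSL2Basic

/-!
# S4855: the degrees of `SL₃(F)` from those of `GL₃(F)` (helper973, for helper691)

`clifford_three` : Clifford theory for the kernel `N` of a surjection `f : G → C` onto a cyclic group, the elements `g` with
`f g` a cube fixing `θ ∈ Irr N`;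
`sl3_sub`.
-/

set_option autoImplicit false

open scoped ComplexConjugate

namespace Cfsg.Agent.H973.SLThree

open Cfsg Matrix
open Cfsg.Agent.Characters.Core Cfsg.Agent.CharactersDeep Cfsg.Agent.H691.T3

section Abs

variable {G C : Type*} [Group G] [Fintype G] [CommGroup C] (f : G →* C)

/-- the stabiliser of a function on a normal subgroup -/
def inertia (N : Subgroup G) [hN : N.Normal] (θ : N → ℂ) : Subgroup G where
  carrier := {g | ∀ n : N, θ ⟨g * n * g⁻¹, hN.conj_mem (n : G) n.2 g⟩ = θ n}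
  one_mem' := fun n => by
    congr 1
    apply Subtype.ext
    simp
  mul_mem' := by
    intro a b ha hb n
    have h1 := ha ⟨b * n * b⁻¹, hN.conj_mem (n : G) n.2 b⟩
    rw [hb n] at h1
    rw [← h1]
    congr 1
    apply Subtype.ext
    show a * b * n * (a * b)⁻¹ = a * (b * n * b⁻¹) * a⁻¹
    group
  inv_mem' := by
    intro a ha n
    have h1 := ha ⟨a⁻¹ * n * a⁻¹⁻¹, hN.conj_mem (n : G) n.2 a⁻¹⟩
    rw [← h1]
    congr 1
    apply Subtype.ext
    show a * (a⁻¹ * n * a⁻¹⁻¹) * a⁻¹ = n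
    group

omit [Fintype G] in
theorem mem_inertia (N : Subgroup G) [hN : N.Normal] (θ : N → ℂ) {g : G} :
    g ∈ inertia N θ ↔ ∀ n : N, θ ⟨g * n * g⁻¹, hN.conj_mem (n : G) n.2 g⟩ = θ n := Iff.rfl

/-- an irreducible restriction: no linear character stabilises -/
theorem not_stab {χ : G → ℂ} (hf : Function.Surjective f) (hχ : IsIrrCharacter G χ)
    (hχN : IsIrrCharacter f.ker (fun n : f.ker => χ n)) {l : C →* ℂˣ} (hl : l ≠ 1)
    (h : ∀ g, ((l (f g) : ℂˣ) : ℂ) * χ g = χ g) : False := by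
  classical
  obtain ⟨c, hc⟩ : ∃ c, l c ≠ 1 := by
    by_contra hcon
    push Not at hcon
    exact hl (MonoidHom.ext hcon)
  obtain ⟨g, rfl⟩ := hf c
  have h1 := CosetAverage.cosetAverage_self f.ker χ hχ hχN g
  have h2 : ∀ n : f.ker, χ ((n : G) * g) = 0 := by
    intro n
    have h3 := h ((n : G) * g)
    rw [map_mul, MonoidHom.mem_ker.1 n.2, one_mul] at h3
    by_contra hne
    apply hc
    ext
    rw [Units.val_one]
    exact mul_right_cancel₀ hne (h3.trans (one_mul _).symm)
  have h4 : (∑ n : f.ker, χ ((n : G) * g) * conj (χ ((n : G) * g))) = 0 :=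
    Finset.sum_eq_zero fun n _ => by rw [h2 n, zero_mul]
  rw [h4, mul_zero] at h1
  exact zero_ne_one h1

/-- **Clifford theory** for a cyclic quotient and a character fixed by the elements which are cubes in the quotient. -/
theorem clifford_three [Finite C] [IsCyclic C] (hf : Function.Surjective f) (N : Subgroup G) [hNn : N.Normal]
    (hN : N = f.ker) {θ : N → ℂ} (hθ : IsIrrCharacter N θ)
    (hcube : ∀ g : G, (∃ c, f g = c ^ 3) → ∀ n : N, θ ⟨g * n * g⁻¹, hNn.conj_mem (n : G) n.2 g⟩ = θ n) :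
    (∃ χ : G → ℂ, IsIrrCharacter G χ ∧ χ 1 = θ 1 ∧
      ∀ l : C →* ℂˣ, l ≠ 1 → ¬ ∀ g, ((l (f g) : ℂˣ) : ℂ) * χ g = χ g) ∨
    (3 ∣ Nat.card C ∧ ∃ χ : G → ℂ, IsIrrCharacter G χ ∧ χ 1 = 3 * θ 1 ∧
      ∃ l : C →* ℂˣ, l ≠ 1 ∧ ∀ g, ((l (f g) : ℂˣ) : ℂ) * χ g = χ g) := by
  classical
  set T := inertia N θ with hT
  by_cases hTt : T = ⊤
  · left
    have hinv : ∀ (g : G) (n : N), θ ⟨g * n * g⁻¹, hNn.conj_mem (n : G) n.2 g⟩ = θ n := by
      intro g
      have : g ∈ T := by rw [hTt]; trivial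
      exact this
    have hcyc : IsCyclic (G ⧸ N) := by
      subst hN
      exact isCyclic_of_surjective (QuotientGroup.quotientKerEquivOfSurjective f hf).symm
        (QuotientGroup.quotientKerEquivOfSurjective f hf).symm.surjective
    obtain ⟨χ, hχ, hχθ⟩ := Cfsg.Agent.S0886.result N hcyc θ hθ hinv
    refine ⟨χ, hχ, hχθ 1, fun l hl h => ?_⟩
    have hχN : IsIrrCharacter N (fun n : N => χ n) := by
      have : (fun n : N => χ n) = θ := funext hχθ
      rw [this]
      exact hθ
    subst hN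
    exact not_stab f hf hχ hχN hl h
  · right
    -- the index of `T`
    have hNT : N ≤ T := by
      intro g hg
      rw [hN] at hg
      have h1 : f g = (1 : C) ^ 3 := by rw [MonoidHom.mem_ker.1 hg, one_pow]
      exact hcube g ⟨1, h1⟩
    have hMT : ((powMonoidHom 3 : C →* C).range).comap f ≤ T := by
      rintro g ⟨c, hc⟩
      exact hcube g ⟨c, hc.symm⟩
    have hidx : T.index = 3 ∧ 3 ∣ Nat.card C := by
      have h1 : T.index ∣ (Nat.card C).gcd 3 := by
        rw [← IsCyclic.index_powMonoidHom_range, ← Subgroup.index_comap_of_surjective _ hf]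
        exact Subgroup.index_dvd_of_le hMT
      have h2 : T.index ≠ 1 := fun h => hTt (Subgroup.index_eq_one.1 h)
      have h3 : T.index ∣ 3 := h1.trans (Nat.gcd_dvd_right _ _)
      have h4 : T.index = 3 := by
        rcases (Nat.dvd_prime Nat.prime_three).1 h3 with h5 | h5
        · exact absurd h5 h2
        · exact h5
      rw [h4] at h1
      exact ⟨h4, h1.trans (Nat.gcd_dvd_left _ _)⟩
    refine ⟨hidx.2, ?_⟩
    have hTn : T.Normal := by
      refine ⟨fun t ht g => ?_⟩
      have h1 : g * t * g⁻¹ * t⁻¹ ∈ N := by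
        rw [hN, MonoidHom.mem_ker, map_mul, map_mul, map_mul, map_inv, map_inv, mul_comm (f g) (f t),
          mul_inv_cancel_right, mul_inv_cancel]
      have h2 := T.mul_mem (hNT h1) ht
      rwa [inv_mul_cancel_right] at h2
    -- the extension to `T`
    have hcycT : IsCyclic (T ⧸ (N.subgroupOf T)) := by
      have h1 : IsCyclic (T ⧸ (f.comp T.subtype).ker) := by
        have h2 : IsCyclic (f.comp T.subtype).range := inferInstance
        exact isCyclic_of_surjective (QuotientGroup.quotientKerEquivRange (f.comp T.subtype)).symm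
          (QuotientGroup.quotientKerEquivRange (f.comp T.subtype)).symm.surjective
      subst hN
      exact h1
    set θ' : N.subgroupOf T → ℂ := fun x => θ ⟨((x : T) : G), Subgroup.mem_subgroupOf.mp x.2⟩ with hθ'
    have hθ'irr : IsIrrCharacter (N.subgroupOf T) θ' := by
      have h1 := isIrr_comp (Subgroup.subgroupOfEquivOfLe hNT).toMonoidHom
        (Subgroup.subgroupOfEquivOfLe hNT).surjective hθ
      exact h1
    have hinvT : ∀ (t : T) (n : N.subgroupOf T), θ' ⟨t * n * t⁻¹, (inferInstance : (N.subgroupOf T).Normal).conj_mem (n : T) n.2 t⟩ = θ' n := by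
      intro t n
      exact t.2 ⟨((n : T) : G), Subgroup.mem_subgroupOf.mp n.2⟩
    obtain ⟨ψ, hψ, hψθ⟩ := Cfsg.Agent.S0886.result (N.subgroupOf T) hcycT θ' hθ'irr hinvT
    have hne : classInner (indFun (N.subgroupOf T) θ') ψ ≠ 0 := by
      rw [NormalInd.classInner_indFun _ _ _ (isIrr_isClassFunction hψ)]
      have h1 : (fun h : N.subgroupOf T => ψ h) = θ' := funext hψθ
      rw [h1, classInner_irr_self hθ'irr]
      exact one_ne_zero
    have hirr := (Cfsg.Agent.S1489.result N T θ hθ (fun g => Iff.rfl) hNT ψ ψ hψ hψ hne hne).1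
    refine ⟨indFun T ψ, hirr, ?_, ?_⟩
    · rw [NormalInd.indFun_one, hidx.1]
      have h1 : ψ 1 = θ 1 := hψθ 1
      rw [h1]
      norm_num
    · -- a linear character of `C` trivial on `f T`
      set D := T.map f with hD
      have hDt : D ≠ ⊤ := by
        intro h
        apply hTt
        rw [eq_top_iff]
        intro g _
        have h1 : f g ∈ D := by rw [h]; trivial
        obtain ⟨t, ht, htg⟩ := h1
        have h2 : g * t⁻¹ ∈ N := by
          rw [hN, MonoidHom.mem_ker, map_mul, map_inv, htg, mul_inv_cancel]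
        have h3 := T.mul_mem (hNT h2) ht
        rwa [inv_mul_cancel_right] at h3
      obtain ⟨c, hc⟩ : ∃ c, c ∉ D := by
        by_contra hcon
        push Not at hcon
        exact hDt (eq_top_iff.2 fun c _ => hcon c)
      have hc1 : (QuotientGroup.mk c : C ⧸ D) ≠ 1 := fun h => hc ((QuotientGroup.eq_one_iff c).1 h)
      obtain ⟨l₀, hl₀⟩ := CommGroup.exists_apply_ne_one_of_hasEnoughRootsOfUnity (C ⧸ D) ℂ hc1
      refine ⟨l₀.comp (QuotientGroup.mk' D), ?_, ?_⟩
      · intro h
        apply hl₀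
        have := congrArg (fun l : C →* ℂˣ => l c) h
        exact this
      · intro g
        by_cases hg : g ∈ T
        · have h1 : (QuotientGroup.mk' D) (f g) = 1 := (QuotientGroup.eq_one_iff (f g)).2 ⟨g, hg, rfl⟩
          rw [MonoidHom.comp_apply, h1, map_one, Units.val_one, one_mul]
        · rw [NormalInd.indFun_of_not_mem T _ hg, mul_zero]

end Abs

/-! ### `GL₃` -/

theorem charDegree_eq {G : Type*} [Group G] {χ : G → ℂ} {n : ℕ} (h : χ 1 = n) : charDegree χ = n := by
  unfold charDegree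
  rw [h, Complex.natCast_re, Nat.floor_natCast]

theorem sl3_sub {F : Type} [Field F] [Fintype F] (h : GLList F) :
    charDegrees (SpecialLinearGroup (Fin 3) F) ⊆ DT (Fintype.card F) := by
  classical
  intro d hd
  have hpos := Cfsg.Agent.H424.DegTools.pos_of_mem hd
  let f : GL (Fin 3) F →* Fˣ := GeneralLinearGroup.det
  have hf : Function.Surjective f := GeneralLinearGroup.det_surjective
  have e : SpecialLinearGroup (Fin 3) F ≃* f.ker :=
    (MonoidHom.ofInjective Matrix.SpecialLinearGroup.toGL_injective).trans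
      (MulEquiv.subgroupCongr (Cfsg.Agent.ClassicalGeometry.PSL2Basic.range_toGL (Fin 3) F))
  rw [Cfsg.Agent.H424.DegTools.charDegrees_congr e, Cfsg.Agent.H424.DegTools.mem_charDegrees] at hd
  obtain ⟨θ, hθ, hθ1⟩ := hd
  have hcl := isIrr_isClassFunction hθ
  have hcube : ∀ g : GL (Fin 3) F, (∃ c, f g = c ^ 3) → ∀ n : f.ker,
      θ ⟨g * n * g⁻¹, (inferInstance : f.ker.Normal).conj_mem (n : GL (Fin 3) F) n.2 g⟩ = θ n := by
    rintro g ⟨c, hc⟩ n
    -- the scalar matrix
    let z : GL (Fin 3) F := Units.map (Matrix.scalar (Fin 3)).toMonoidHom c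
    have hz : ∀ x : GL (Fin 3) F, z * x = x * z := by
      intro x
      apply Units.ext
      show (Matrix.scalar (Fin 3)) (c : F) * (x : Matrix (Fin 3) (Fin 3) F) = x * (Matrix.scalar (Fin 3)) (c : F)
      exact (Matrix.scalar_commute (c : F) (fun _ => mul_comm _ _) _).eq
    have hzd : f z = c ^ 3 := by
      apply Units.ext
      show ((Matrix.scalar (Fin 3)) (c : F)).det = ((c ^ 3 : Fˣ) : F)
      rw [Matrix.scalar_apply, Matrix.det_diagonal]
      simp
    have hm : g * z⁻¹ ∈ f.ker := by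
      rw [MonoidHom.mem_ker, map_mul, map_inv, hzd, hc, mul_inv_cancel]
    have h1 := hcl n ⟨g * z⁻¹, hm⟩
    rw [← h1]
    congr 1
    apply Subtype.ext
    show g * n * g⁻¹ = g * z⁻¹ * n * (g * z⁻¹)⁻¹
    have h2 := hz (n : GL (Fin 3) F)
    calc g * n * g⁻¹ = g * z⁻¹ * (z * n) * g⁻¹ := by group
      _ = g * z⁻¹ * (n * z) * g⁻¹ := by rw [h2]
      _ = g * z⁻¹ * n * (g * z⁻¹)⁻¹ := by group
  have hcardF : 1 < Fintype.card F := Fintype.one_lt_card
  have hcardU : Nat.card Fˣ = Fintype.card F - 1 := by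
    rw [Nat.card_eq_fintype_card, Fintype.card_units]
  rcases clifford_three f hf f.ker rfl hθ hcube with ⟨χ, hχ, hχ1, hns⟩ | ⟨h3, χ, hχ, hχ1, hs⟩
  · have hns' : ¬ Stab χ := fun ⟨l, hl, hl'⟩ => hns l hl hl'
    have hdeg : charDegree χ = d := charDegree_eq (by rw [hχ1, hθ1])
    have h1 := h χ hχ
    rw [hdeg] at h1
    rcases h1 with ⟨-, h1⟩ | ⟨h1, h4, h5⟩ | h1
    · rcases h1 with h1 | h1 | h1 | h1 | ⟨h3, h1⟩
      · exact Or.inl h1
      · exact Or.inr (Or.inl h1)
      · exact Or.inr (Or.inr (Or.inl h1))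
      · exact Or.inr (Or.inr (Or.inr (Or.inl h1)))
      · exact Or.inr (Or.inr (Or.inr (Or.inr (Or.inr (Or.inl ⟨h3, h1⟩)))))
    · have h6 : Fintype.card F ≠ 4 := fun h6 => hns' (h5 h6)
      exact Or.inr (Or.inr (Or.inr (Or.inr (Or.inr (Or.inr (Or.inl ⟨by omega, h1⟩))))))
    · exact Or.inr (Or.inr (Or.inr (Or.inr (Or.inl h1))))
  · have hs' : Stab χ := hs
    rw [hcardU] at h3
    have hdeg : charDegree χ = 3 * d := charDegree_eq (by rw [hχ1, hθ1]; push_cast; ring)
    have h1 := h χ hχ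
    rw [hdeg] at h1
    refine Or.inr (Or.inr (Or.inr (Or.inr (Or.inr (Or.inr (Or.inr ⟨h3, ?_⟩))))))
    rcases h1 with ⟨h1, -⟩ | ⟨h1, -⟩ | h1
    · exact absurd hs' h1
    · exact Or.inl h1
    · exact Or.inr h1

end Cfsg.Agent.H973.SLThree
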