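import Cfsg.Agent.H851.SimsDefs
import Cfsg.Prelude.Def_Classification2
import Cfsg.Prelude.Def_LieTypeChar

/-!
# S3386: linear representations of bounded degree of the groups of Lie type
-/

set_option autoImplicit false
set_option maxHeartbeats 400000

open Cfsg Cfsg.Agent.H851.Sims

namespace Cfsg.Agent.H973.SimsLin

open Function

universe u

/-- A faithful action on a finite-dimensional space. -/
theorem linDeg_of_hom {S : Type*} [Group S] {F : Type} [Field F] {r : ℕ} [CharP F r]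
    {V : Type*} [AddCommGroup V] [Module F V] [Module.Finite F V] (f : S →* (V →ₗ[F] V))
    (hf : Injective f) {N : ℕ} (hN : Module.finrank F V ≤ N) : LinDeg N r S := by
  let b := Module.finBasis F V
  let g : S →* Matrix (Fin (Module.finrank F V)) (Fin (Module.finrank F V)) F :=
    ((LinearMap.toMatrixAlgEquiv b).toAlgHom : (V →ₗ[F] V) →* _).comp f
  refine ⟨Module.finrank F V, F, inferInstance, inferInstance, g.toHomUnits, hN, ?_⟩
  intro x y hxy
  apply hf
  have h1 : g x = g y := congrArg Units.val hxy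
  exact (LinearMap.toMatrixAlgEquiv b).injective h1

/-- The quotient of a linear group by its centre acts faithfully on the span of the group. -/
theorem linDeg_quot {H : Type*} [Group H] {F : Type} [Field F] {r : ℕ} [CharP F r]
    {ι : Type*} [Fintype ι] [DecidableEq ι] (ρ : H →* Matrix ι ι F) (hρ : Injective ρ) :
    LinDeg (Fintype.card ι ^ 2) r (H ⧸ Subgroup.center H) := by
  let V : Submodule F (Matrix ι ι F) := Submodule.span F (Set.range ρ)
  let c : H → (Matrix ι ι F →ₗ[F] Matrix ι ι F) := fun h =>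
    (LinearMap.mulLeft F (ρ h)).comp (LinearMap.mulRight F (ρ h⁻¹))
  have hc : ∀ h A, c h A = ρ h * (A * ρ h⁻¹) := fun h A => rfl
  have hcV : ∀ h, ∀ A ∈ V, c h A ∈ V := by
    intro h A hA
    have h1 : V ≤ V.comap (c h) := by
      refine Submodule.span_le.mpr ?_
      rintro _ ⟨k, rfl⟩
      change c h (ρ k) ∈ V
      rw [hc, ← map_mul, ← map_mul]
      exact Submodule.subset_span ⟨_, rfl⟩
    exact h1 hA
  let f : H →* (V →ₗ[F] V) :=
    { toFun := fun h => (c h).restrict (hcV h)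
      map_one' := by
        ext A
        simp [LinearMap.restrict_apply, hc]
      map_mul' := fun x y => by
        apply LinearMap.ext
        intro A
        apply Subtype.ext
        change c (x * y) A = c x (c y A)
        rw [hc, hc, hc, map_mul, mul_inv_rev, map_mul]
        simp only [mul_assoc] }
  have hf : ∀ h (A : V), ((f h A : V) : Matrix ι ι F) = ρ h * ((A : Matrix ι ι F) * ρ h⁻¹) :=
    fun h A => rfl
  have hinv : ∀ h, ρ h⁻¹ * ρ h = 1 := fun h => by rw [← map_mul, inv_mul_cancel, map_one]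
  have hinv' : ∀ h, ρ h * ρ h⁻¹ = 1 := fun h => by rw [← map_mul, mul_inv_cancel, map_one]
  have hker : Subgroup.center H ≤ f.ker := by
    intro z hz
    rw [MonoidHom.mem_ker]
    apply LinearMap.ext
    intro A
    apply Subtype.ext
    rw [hf]
    change _ = (A : Matrix ι ι F)
    have h1 : ∀ B ∈ V, ρ z * B = B * ρ z := by
      intro B hB
      induction hB using Submodule.span_induction with
      | mem x hx =>
        obtain ⟨k, rfl⟩ := hx
        rw [← map_mul, ← map_mul, Subgroup.mem_center_iff.mp hz]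
      | zero => rw [mul_zero, zero_mul]
      | add x y _ _ hx hy => rw [mul_add, add_mul, hx, hy]
      | smul a x _ hx => rw [mul_smul_comm, smul_mul_assoc, hx]
    rw [← mul_assoc, h1 A A.2, mul_assoc, hinv', mul_one]
  refine linDeg_of_hom (QuotientGroup.lift (Subgroup.center H) f hker) ?_ ?_
  · rw [injective_iff_map_eq_one]
    intro y
    induction y using QuotientGroup.induction_on with
    | H h =>
      intro hh
      rw [QuotientGroup.eq_one_iff, Subgroup.mem_center_iff]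
      intro k
      apply hρ
      have h1 : f h = 1 := hh
      have h2 := congrArg (fun l : V →ₗ[F] V => ((l ⟨ρ k, Submodule.subset_span ⟨k, rfl⟩⟩ : V) :
        Matrix ι ι F)) h1
      have h3 : ρ h * (ρ k * ρ h⁻¹) = ρ k := h2
      rw [map_mul, map_mul]
      calc ρ k * ρ h = ρ h * (ρ k * ρ h⁻¹) * ρ h := by rw [h3]
        _ = ρ h * ρ k := by rw [← mul_assoc, mul_assoc, hinv, mul_one]
  · calc Module.finrank F V ≤ Module.finrank F (Matrix ι ι F) := Submodule.finrank_le V
      _ = Fintype.card ι ^ 2 := by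
        rw [Module.finrank_matrix, Module.finrank_self, mul_one, pow_two]

theorem linDeg_congr {N r : ℕ} {S T : Type*} [Group S] [Group T] (e : S ≃* T)
    (h : LinDeg N r T) : LinDeg N r S := by
  obtain ⟨n, k, ik, ic, ρ, hn, hρ⟩ := h
  exact ⟨n, k, ik, ic, ρ.comp e.toMonoidHom, hn, hρ.comp e.injective⟩

theorem linDeg_mono {N M r : ℕ} (hNM : N ≤ M) {S : Type*} [Group S] (h : LinDeg N r S) :
    LinDeg M r S := by
  obtain ⟨n, k, ik, ic, ρ, hn, hρ⟩ := h
  exact ⟨n, k, ik, ic, ρ, hn.trans hNM, hρ⟩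

/-- A subgroup of `GL_ι(F)`. -/
theorem linDeg_subgroup {F : Type} [Field F] {r : ℕ} [CharP F r] {ι : Type*} [Fintype ι]
    [DecidableEq ι] (A : Subgroup (Matrix.GeneralLinearGroup ι F)) :
    LinDeg (Fintype.card ι) r A := by
  let f : A →* ((ι → F) →ₗ[F] (ι → F)) :=
    ((Matrix.toLinAlgEquiv' : Matrix ι ι F ≃ₐ[F] _).toAlgHom : Matrix ι ι F →* _).comp
      ((Units.coeHom (Matrix ι ι F)).comp A.subtype)
  refine linDeg_of_hom f ?_ ?_
  · intro x y hxy
    apply Subtype.ext
    apply Units.ext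
    exact (Matrix.toLinAlgEquiv' : Matrix ι ι F ≃ₐ[F] _).injective hxy
  · rw [Module.finrank_fintype_fun_eq_card]

theorem linDeg_psl (n : ℕ) (F : Type) [Field F] [Finite F] (r : ℕ) [CharP F r] :
    LinDeg (n ^ 2) r (Matrix.ProjectiveSpecialLinearGroup (Fin n) F) := by
  have h := linDeg_quot (r := r) (slToMat n F) (fun x y h => Matrix.SpecialLinearGroup.ext _ _
    fun i j => congrFun (congrFun h i) j)
  rwa [Fintype.card_fin] at h

theorem linDeg_psp (m : ℕ) (F : Type) [Field F] [Finite F] (r : ℕ) [CharP F r] :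
    LinDeg ((2 * m) ^ 2) r (PSp m F) := by
  have h := linDeg_quot (r := r) ((Matrix.symplecticGroup (Fin m) F).subtype)
    Subtype.val_injective
  rw [Fintype.card_sum, Fintype.card_fin, ← two_mul] at h
  exact h

theorem linDeg_psu (n q : ℕ) (F : Type) [Field F] [Finite F] (r : ℕ) [CharP F r] :
    LinDeg (n ^ 2) r (PSU n F q) := by
  have h := linDeg_quot (r := r) ((slToMat n F).comp (SU n F q).subtype) (fun x y h => by
    apply Subtype.ext
    exact Matrix.SpecialLinearGroup.ext _ _ fun i j => congrFun (congrFun h i) j)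
  rwa [Fintype.card_fin] at h

theorem linDeg_pomega {ι : Type} [Fintype ι] [DecidableEq ι] (F : Type) [Field F] [Finite F]
    (r : ℕ) [CharP F r] (Q : (ι → F) → F) : LinDeg (Fintype.card ι ^ 2) r (POmega F Q) :=
  linDeg_quot (r := r) ((Units.coeHom (Matrix ι ι F)).comp
    ((isometryGroup F Q).subtype.comp (Omega F Q).subtype)) (fun x y h => by
    apply Subtype.ext
    apply Subtype.ext
    exact Units.ext h)

/-! ### the exceptional groups -/

theorem linDeg_gl {N : ℕ} {F : Type} [Field F] {r : ℕ} [CharP F r] {ι : Type*} [Fintype ι]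
    [DecidableEq ι] (A : Subgroup (Matrix.GeneralLinearGroup ι F)) {S : Type*} [Group S]
    (e : Nonempty (S ≃* A)) (hN : Fintype.card ι ≤ N) : LinDeg N r S := by
  obtain ⟨e⟩ := e
  exact linDeg_congr e (linDeg_mono hN (linDeg_subgroup A))

theorem card_G2 : Fintype.card Lie.chevG2.Idx ≤ 248 := by
  rw [Fintype.card_sum, Fintype.card_fin, Fintype.card_fin]; decide
theorem card_F4 : Fintype.card Lie.chevF4.Idx ≤ 248 := by
  rw [Fintype.card_sum, Fintype.card_fin, Fintype.card_fin]; decide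
theorem card_D4 : Fintype.card Lie.chevD4.Idx ≤ 248 := by
  rw [Fintype.card_sum, Fintype.card_fin, Fintype.card_fin]; decide
theorem card_E6 : Fintype.card Lie.chevE6.Idx ≤ 248 := by
  rw [Fintype.card_sum, Fintype.card_fin, Fintype.card_fin]; decide
theorem card_E7 : Fintype.card Lie.chevE7.Idx ≤ 248 := by
  rw [Fintype.card_sum, Fintype.card_fin, Fintype.card_fin]; decide
theorem card_E8 : Fintype.card Lie.chevE8.Idx ≤ 248 := by
  rw [Fintype.card_sum, Fintype.card_fin, Fintype.card_fin]; decide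

theorem exists_char (F : Type) [Field F] [Fintype F] : ∃ r : ℕ, r.Prime ∧ CharP F r := by
  obtain ⟨r, hr⟩ := CharP.exists F
  exact ⟨r, CharP.char_is_prime F r, hr⟩

theorem linDeg_exc {S : Type u} [Group S] (h : IsExceptionalLieType S) (hT : ¬ Lie.IsoTits S) :
    ∃ r : ℕ, r.Prime ∧ IsLieTypeChar r S ∧ LinDeg 248 r S := by
  rcases h with h | h | h | h | h | h | h | h | h | h | h
  · obtain ⟨F, iF, iF', h3, he⟩ := h
    obtain ⟨r, hr, hc⟩ := exists_char F
    refine ⟨r, hr, ?_, linDeg_gl _ he card_G2⟩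
    exact Or.inr (Or.inr (Or.inr (Or.inr (Or.inr (Or.inr (Or.inl
      ⟨F, iF, iF', hc, Or.inl ⟨h3, he⟩⟩))))))
  · obtain ⟨F, iF, iF', he⟩ := h
    obtain ⟨r, hr, hc⟩ := exists_char F
    refine ⟨r, hr, ?_, linDeg_gl _ he card_F4⟩
    exact Or.inr (Or.inr (Or.inr (Or.inr (Or.inr (Or.inr (Or.inl
      ⟨F, iF, iF', hc, Or.inr (Or.inl he)⟩))))))
  · obtain ⟨F, iF, iF', he⟩ := h
    obtain ⟨r, hr, hc⟩ := exists_char F
    refine ⟨r, hr, ?_, linDeg_gl _ he card_E6⟩
    exact Or.inr (Or.inr (Or.inr (Or.inr (Or.inr (Or.inr (Or.inl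
      ⟨F, iF, iF', hc, Or.inr (Or.inr (Or.inl he))⟩))))))
  · obtain ⟨F, iF, iF', he⟩ := h
    obtain ⟨r, hr, hc⟩ := exists_char F
    refine ⟨r, hr, ?_, linDeg_gl _ he card_E7⟩
    exact Or.inr (Or.inr (Or.inr (Or.inr (Or.inr (Or.inr (Or.inl
      ⟨F, iF, iF', hc, Or.inr (Or.inr (Or.inr (Or.inl he)))⟩))))))
  · obtain ⟨F, iF, iF', he⟩ := h
    obtain ⟨r, hr, hc⟩ := exists_char F
    refine ⟨r, hr, ?_, linDeg_gl _ he card_E8⟩
    exact Or.inr (Or.inr (Or.inr (Or.inr (Or.inr (Or.inr (Or.inl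
      ⟨F, iF, iF', hc, Or.inr (Or.inr (Or.inr (Or.inr he)))⟩))))))
  · obtain ⟨F, iF, iF', q, hq, hcard, he⟩ := h
    obtain ⟨r, hr, hc⟩ := exists_char F
    refine ⟨r, hr, ?_, linDeg_gl _ he card_E6⟩
    exact Or.inr (Or.inr (Or.inr (Or.inr (Or.inr (Or.inr (Or.inr (Or.inl
      ⟨F, iF, iF', hc, q, hq, Or.inl ⟨hcard, he⟩⟩)))))))
  · obtain ⟨F, iF, iF', q, hq, hcard, he⟩ := h
    obtain ⟨r, hr, hc⟩ := exists_char F
    refine ⟨r, hr, ?_, linDeg_gl _ he card_D4⟩
    exact Or.inr (Or.inr (Or.inr (Or.inr (Or.inr (Or.inr (Or.inr (Or.inl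
      ⟨F, iF, iF', hc, q, hq, Or.inr ⟨hcard, he⟩⟩)))))))
  · refine ⟨2, Nat.prime_two, Or.inr (Or.inr (Or.inr (Or.inr (Or.inr (Or.inr (Or.inr (Or.inr
      (Or.inl ⟨rfl, h⟩)))))))), ?_⟩
    obtain ⟨F, iF, iF', m, hm, hcard, he⟩ := h
    have : Fact (Nat.Prime 2) := ⟨Nat.prime_two⟩
    have hc : CharP F 2 := charP_of_card_eq_prime_pow hcard
    exact linDeg_gl _ he (by rw [Fintype.card_fin]; norm_num)
  · refine ⟨3, Nat.prime_three, Or.inr (Or.inr (Or.inr (Or.inr (Or.inr (Or.inr (Or.inr (Or.inr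
      (Or.inr (Or.inr ⟨rfl, h⟩))))))))), ?_⟩
    obtain ⟨F, iF, iF', m, hm, hcard, he⟩ := h
    have : Fact (Nat.Prime 3) := ⟨Nat.prime_three⟩
    have hc : CharP F 3 := charP_of_card_eq_prime_pow hcard
    exact linDeg_gl _ he card_G2
  · refine ⟨2, Nat.prime_two, Or.inr (Or.inr (Or.inr (Or.inr (Or.inr (Or.inr (Or.inr (Or.inr
      (Or.inr (Or.inl ⟨rfl, h⟩))))))))), ?_⟩
    obtain ⟨F, iF, iF', m, hm, hcard, he⟩ := h
    have : Fact (Nat.Prime 2) := ⟨Nat.prime_two⟩
    have hc : CharP F 2 := charP_of_card_eq_prime_pow hcard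
    exact linDeg_gl _ he card_F4
  · exact absurd h hT

end Cfsg.Agent.H973.SimsLin
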