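import Mathlib
import Cfsg.Agent.H36.Sims.Isotypic

/-!
# S3386: unipotent elements commuting with a small group of operators
-/

set_option autoImplicit false

namespace Cfsg.Agent.H973.SimsUni

open Function

/-- The isotypic lemma (task 444). -/
def IsoStmt : Prop := ∀ {F R V : Type} [Field F] [Ring R] [Algebra F R] [AddCommGroup V]
    [Module F V] [Module R V] [IsScalarTower F R V] [Module.Finite F V] [IsSemisimpleModule R V]
    (K m : ℕ)
    (_ : ∃ T : Finset R, T.card ≤ K ∧
      ∀ x : R, ∃ y ∈ Submodule.span F (T : Set R), ∀ v : V, x • v = y • v)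
    (_ : K * K * m < Module.finrank F V),
    ∃ U : Submodule R V, IsSimpleModule R U ∧ Module.finrank F U ≤ K ∧
      ∃ W : Submodule R V, Nonempty (W ≃ₗ[R] (Fin m → U))

open scoped MonoidAlgebra in
theorem exists_nilp (hiso : IsoStmt) {F V : Type} [Field F] [AddCommGroup V] [Module F V]
    [Module.Finite F V] {X : Type} [Group X] [Finite X] (ρ : X →* Module.End F V)
    (hX : (Nat.card X : F) ≠ 0) (K c : ℕ)
    (hK : ∃ T : Finset X, T.card ≤ K ∧ ∀ x, ∃ t ∈ T, ∃ a : F, ∀ v, ρ x v = a • ρ t v)
    (hdim : K * K * (c + 1) < Module.finrank F V) :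
    ∃ N : (Fin c → F) →ₗ[F] Module.End F V, Injective N ∧ (∀ a b, N a * N b = 0) ∧
      ∀ a x, ρ x * N a = N a * ρ x := by
  classical
  let R := MonoidAlgebra F X
  let θ : R →ₐ[F] Module.End F V := MonoidAlgebra.lift F (Module.End F V) X ρ
  letI : Module R V := Module.compHom V θ.toRingHom
  have hsm : ∀ (x : R) (v : V), x • v = θ x v := fun x v => rfl
  have hscal : ∀ (a : F) (x : R) (v : V), (a • x) • v = a • (x • v) := by
    intro a x v
    rw [hsm, hsm, map_smul]
    rfl
  haveI : IsScalarTower F R V := ⟨hscal⟩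
  haveI : NeZero (Nat.card X : F) := ⟨hX⟩
  haveI : IsSemisimpleModule R V := inferInstance
  have hθ : ∀ x : X, θ (MonoidAlgebra.single x 1) = ρ x := by
    intro x
    change MonoidAlgebra.lift F (Module.End F V) X ρ (MonoidAlgebra.single x 1) = ρ x
    rw [MonoidAlgebra.lift_single, one_smul]
  obtain ⟨U, hU, -, W, ⟨e⟩⟩ := hiso (F := F) (R := R) (V := V) K (c + 1) (by
    obtain ⟨T, hT, hTx⟩ := hK
    refine ⟨T.image (fun t => MonoidAlgebra.single t 1), Finset.card_image_le.trans hT,
      fun x => ?_⟩
    induction x using MonoidAlgebra.induction_linear with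
    | zero => exact ⟨0, Submodule.zero_mem _, fun v => rfl⟩
    | add x y hx hy =>
      obtain ⟨x', hx', hx2⟩ := hx
      obtain ⟨y', hy', hy2⟩ := hy
      refine ⟨x' + y', Submodule.add_mem _ hx' hy', fun v => ?_⟩
      rw [add_smul, add_smul, hx2, hy2]
    | single x a =>
      obtain ⟨t, ht, b, hb⟩ := hTx x
      refine ⟨(a * b) • MonoidAlgebra.single t 1, Submodule.smul_mem _ _
        (Submodule.subset_span (Finset.mem_coe.mpr (Finset.mem_image_of_mem _ ht))), fun v => ?_⟩
      have h1 : (MonoidAlgebra.single x a : R) = a • MonoidAlgebra.single x 1 := by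
        rw [MonoidAlgebra.smul_single, smul_eq_mul, mul_one]
      rw [h1, hscal, hscal, hsm, hsm, hθ, hθ, hb, mul_smul]) hdim
  obtain ⟨M, hM⟩ := exists_isCompl W
  let pr : V →ₗ[R] W := W.projectionOnto M hM
  have hpr : ∀ w : W, pr (w : V) = w := fun w => Submodule.projectionOnto_apply_left hM w
  let B : Fin c → (V →ₗ[R] V) := fun i => W.subtype ∘ₗ e.symm.toLinearMap ∘ₗ
    LinearMap.single R (fun _ : Fin (c + 1) => U) i.succ ∘ₗ
      LinearMap.proj 0 ∘ₗ e.toLinearMap ∘ₗ pr
  let q : Fin (c + 1) → (V →ₗ[R] U) := fun j => LinearMap.proj j ∘ₗ e.toLinearMap ∘ₗ pr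
  have hB : ∀ i v, B i v = ((e.symm (Pi.single i.succ (q 0 v)) : W) : V) := fun i v => rfl
  have hq : ∀ j (w : Fin (c + 1) → U), q j ((e.symm w : W) : V) = w j := by
    intro j w
    change (e (pr ((e.symm w : W) : V))) j = w j
    rw [hpr, LinearEquiv.apply_symm_apply]
  have hBB : ∀ i j v, B i (B j v) = 0 := by
    intro i j v
    rw [hB i, hB j, hq, Pi.single_eq_of_ne (Fin.succ_ne_zero j).symm, Pi.single_zero, map_zero]
    rfl
  let B' : Fin c → Module.End F V := fun i => (B i).restrictScalars F
  have hB' : ∀ i v, B' i v = B i v := fun i v => rfl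
  refine ⟨Fintype.linearCombination F B', ?_, ?_, ?_⟩
  · rw [← LinearMap.ker_eq_bot, LinearMap.ker_eq_bot']
    intro a ha
    haveI := hU.nontrivial
    obtain ⟨u, hu⟩ := exists_ne (0 : U)
    have h1 : Fintype.linearCombination F B' a ((e.symm (Pi.single 0 u) : W) : V) = 0 := by
      rw [ha]; rfl
    rw [Fintype.linearCombination_apply, LinearMap.sum_apply] at h1
    ext j
    have h2 := congrArg ((q j.succ).restrictScalars F) h1
    rw [map_zero, map_sum, Finset.sum_eq_single j] at h2
    · rw [LinearMap.smul_apply, map_smul, hB', LinearMap.restrictScalars_apply, hB, hq, hq,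
        Pi.single_eq_same, Pi.single_eq_same] at h2
      rcases smul_eq_zero.mp h2 with h3 | h3
      · exact h3
      · exact absurd h3 hu
    · intro i _ hij
      rw [LinearMap.smul_apply, map_smul, hB', LinearMap.restrictScalars_apply, hB, hq,
        Pi.single_eq_of_ne (fun h => hij (Fin.succ_injective _ h).symm), smul_zero]
    · intro h
      exact absurd (Finset.mem_univ j) h
  · intro a b
    refine LinearMap.ext fun v => ?_
    rw [Module.End.mul_apply, Fintype.linearCombination_apply, Fintype.linearCombination_apply,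
      LinearMap.sum_apply, LinearMap.sum_apply, LinearMap.zero_apply]
    refine Finset.sum_eq_zero fun i _ => ?_
    rw [LinearMap.smul_apply, map_sum, Finset.sum_eq_zero (fun j _ => ?_), smul_zero]
    rw [LinearMap.smul_apply, map_smul, hB', hB', hBB, smul_zero]
  · intro a x
    refine LinearMap.ext fun v => ?_
    rw [Module.End.mul_apply, Module.End.mul_apply, Fintype.linearCombination_apply,
      LinearMap.sum_apply, LinearMap.sum_apply, map_sum]
    refine Finset.sum_congr rfl fun i _ => ?_
    rw [LinearMap.smul_apply, LinearMap.smul_apply, map_smul, hB', hB', ← hθ, ← hsm, ← hsm,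
      (B i).map_smul]

end Cfsg.Agent.H973.SimsUni
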